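import Cfsg.Agent.H957.T5RowPSL
import Cfsg.Agent.H533.T5.Defs

/-!
# Pairs of semilinear maps of order `p` in characteristic `p`

* `exists_fixed` : a group of semilinear maps which is a `p`-group modulo scalars fixes a point of every invariant subspace `≠ 0`;
* `Ln F c v A` : `c` leaves the line spanned by `v 0`, `v 1` invariant, its fixed points `[x : y]` satisfy `A x y`;
* `exists_ln` : every element of order `p` has such a line on which it is unipotent `≠ 1`, or a field automorphism;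
* `wp_main` : for two elements of order `p` of `PΓL(V)`, `dim V ≥ 3`, some `SL(V)`-conjugate of the second one generates with the first
  one a group which is not a `p`-group;
* `wrow_of` : the transfer to automorphisms.
-/

set_option autoImplicit false
set_option linter.unusedSectionVars false

namespace Cfsg.Agent.H486.WfOwn

open Module Cfsg.Agent.H957.T5V Cfsg.Agent.H957.T5Conf Cfsg.Agent.H957.T5Pairs Cfsg.Agent.H533.T5
open Cfsg.Agent.H903.SylSemi (Ind scal scal_apply)

variable {F V : Type*} [Field F] [AddCommGroup V] [Module F V]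

theorem isScal_inv {x : Equiv.Perm V} (h : IsScal F x) : IsScal F x⁻¹ := by
  obtain ⟨a, ha⟩ := h
  refine ⟨a⁻¹, fun v => ?_⟩
  apply x.injective
  rw [apply_inv_self, ha, smul_smul]
  by_cases h0 : a = 0
  · subst h0
    have h1 : x v = x 0 := by rw [ha, ha, zero_smul, zero_smul]
    rw [x.injective h1, smul_zero]
  · rw [mul_inv_cancel₀ h0, one_smul]

/-- **Fixed points.** -/
theorem exists_fixed [Finite F] [Finite V] {p : ℕ} [hp : Fact p.Prime] (hF : (p : F) = 0) {Γ : Subgroup (Equiv.Perm V)}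
    (hsemi : ∀ x ∈ Γ, ∃ σ : F ≃+* F, Semi σ x) (hpow : ∀ x ∈ Γ, ∃ k : ℕ, IsScal F (x ^ p ^ k)) {U : Submodule F V}
    (hU0 : U ≠ ⊥) (hU : ∀ x ∈ Γ, ∀ v ∈ U, x v ∈ U) : ∃ v ∈ U, v ≠ 0 ∧ ∀ x ∈ Γ, ∃ a : F, x v = a • v := by
  let N : Subgroup Γ :=
    { carrier := {x | IsScal F (x : Equiv.Perm V)}
      mul_mem' := by
        rintro x y ⟨a, ha⟩ ⟨b, hb⟩
        exact ⟨a * b, fun v => by rw [Subgroup.coe_mul, Equiv.Perm.mul_apply, hb, ha, smul_smul]⟩
      one_mem' := ⟨1, fun v => by rw [one_smul]; rfl⟩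
      inv_mem' := fun {x} hx => isScal_inv hx }
  have hN : N.Normal := ⟨fun x hx g => by
    obtain ⟨σ, hσ⟩ := hsemi g g.2
    exact isScal_conj hσ hx⟩
  have hQ : IsPGroup p (Γ ⧸ N) := by
    intro q
    obtain ⟨x, rfl⟩ := QuotientGroup.mk_surjective q
    obtain ⟨k, hk⟩ := hpow x x.2
    refine ⟨k, ?_⟩
    rw [← QuotientGroup.mk_pow, QuotientGroup.eq_one_iff]
    exact hk
  let S : Sylow p Γ := default
  have htop : N ⊔ (S : Subgroup Γ) = ⊤ := by
    rw [← Subgroup.index_eq_one]
    obtain ⟨k, hk⟩ := IsPGroup.iff_card.1 hQ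
    have h1 : (N ⊔ (S : Subgroup Γ)).index ∣ p ^ k := by
      rw [← hk]
      exact Subgroup.index_dvd_of_le le_sup_left
    have h2 : (N ⊔ (S : Subgroup Γ)).index ∣ (S : Subgroup Γ).index := Subgroup.index_dvd_of_le le_sup_right
    obtain ⟨j, -, hj⟩ := (Nat.dvd_prime_pow hp.out).1 h1
    rcases Nat.eq_zero_or_pos j with h0 | h0
    · rw [hj, h0, pow_zero]
    · exfalso
      apply S.not_dvd_index
      refine (dvd_pow_self p h0.ne').trans ?_
      rw [← hj]
      exact h2
  let _ : MulAction (S : Subgroup Γ) U :=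
    { smul := fun x v => ⟨((x : Γ) : Equiv.Perm V) v, hU _ (x : Γ).2 _ v.2⟩
      one_smul := fun v => rfl
      mul_smul := fun x y v => rfl }
  have hdvd : p ∣ Nat.card U := by
    have h1 : Nontrivial U := Submodule.nontrivial_iff_ne_bot.2 hU0
    obtain ⟨u, hu⟩ := exists_ne (0 : U)
    have h2 : addOrderOf u = p := by
      apply addOrderOf_eq_prime _ hu
      rw [← Nat.cast_smul_eq_nsmul F, hF, zero_smul]
    rw [← h2]
    exact addOrderOf_dvd_natCard u
  have h0 : (0 : U) ∈ MulAction.fixedPoints (S : Subgroup Γ) U := by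
    intro x
    obtain ⟨σ, hσ⟩ := hsemi _ (x : Γ).2
    exact Subtype.ext hσ.zero
  obtain ⟨v, hv, hv0⟩ := S.isPGroup'.exists_fixed_point_of_prime_dvd_card_of_fixed_point U hdvd h0
  refine ⟨v, v.2, fun h => hv0 (Subtype.ext h.symm), ?_⟩
  intro x hx
  have h1 : (⟨x, hx⟩ : Γ) ∈ N ⊔ (S : Subgroup Γ) := by rw [htop]; exact Subgroup.mem_top _
  obtain ⟨y, ⟨a, ha⟩, z, hz, hyz⟩ := Subgroup.mem_sup_of_normal_left.1 h1
  refine ⟨a, ?_⟩
  have h2 : ((z : Γ) : Equiv.Perm V) v = v := congrArg Subtype.val (hv ⟨z, hz⟩)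
  have h3 : x = (y : Equiv.Perm V) * (z : Equiv.Perm V) := congrArg Subtype.val hyz.symm
  rw [h3, Equiv.Perm.mul_apply, h2, ha]

variable (F) in
/-- the pair predicate -/
def WP (p : ℕ) (c d : Equiv.Perm V) : Prop :=
  ∃ g : V ≃ₗ[F] V, LinearEquiv.det g = 1 ∧
    ¬ ∀ x ∈ Subgroup.closure ({c, toA g * d * (toA g)⁻¹} : Set (Equiv.Perm V)), ∃ k : ℕ, IsScal F (x ^ p ^ k)

variable (F) in
/-- invariant line -/
structure Ln (c : Equiv.Perm V) (v : Fin 2 → V) (A : F → F → Prop) : Prop where
  li : LinearIndependent F ![v 0, v 1]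
  inv : ∀ x y : F, ∃ x' y' : F, c (x • v 0 + y • v 1) = x' • v 0 + y' • v 1
  pts : ∀ x y a : F, (x ≠ 0 ∨ y ≠ 0) → c (x • v 0 + y • v 1) = a • (x • v 0 + y • v 1) → A x y

theorem Ln.of_smulA {c : Equiv.Perm V} {s : Fˣ} {v : Fin 2 → V} {A : F → F → Prop} (h : Ln F (smulA s c) v A) :
    Ln F c v A where
  li := h.li
  inv x y := by
    obtain ⟨x', y', h1⟩ := h.inv x y
    refine ⟨(s : F)⁻¹ * x', (s : F)⁻¹ * y', ?_⟩
    rw [smulA_apply] at h1
    have h2 : c (x • v 0 + y • v 1) = (s : F)⁻¹ • ((s : F) • c (x • v 0 + y • v 1)) := by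
      rw [smul_smul, inv_mul_cancel₀ s.ne_zero, one_smul]
    rw [h2, h1]
    module
  pts x y a hxy hc := h.pts x y (s * a) hxy (by rw [smulA_apply, hc, smul_smul])

theorem li2 {v0 v1 : V} (h : LinearIndependent F ![v0, v1]) {x y x' y' : F}
    (h1 : x • v0 + y • v1 = x' • v0 + y' • v1) : x = x' ∧ y = y' := by
  obtain ⟨h2, h3⟩ := li2_iff.1 h (x - x') (y - y') (by
    have : (x - x') • v0 + (y - y') • v1 = (x • v0 + y • v1) - (x' • v0 + y' • v1) := by module
    rw [this, h1, sub_self])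
  exact ⟨sub_eq_zero.1 h2, sub_eq_zero.1 h3⟩

theorem wp_of_ln [Finite F] [FiniteDimensional F V] {p : ℕ} [hp : Fact p.Prime] (hF : (p : F) = 0)
    (hn : 2 < finrank F V) {c d : Equiv.Perm V} {σ τ : F ≃+* F} (hc : Semi σ c) (hd : Semi τ d) {v w : Fin 2 → V}
    {A B : F → F → Prop} (hv : Ln F c v A) (hw : Ln F d w B) (α β γ δ : F) (hdet : α * δ - β * γ ≠ 0)
    (hdis : ∀ x y : F, (x ≠ 0 ∨ y ≠ 0) → B x y → A (x * α + y * γ) (x * β + y * δ) → False) : WP F p c d := by
  have hfin : Finite V := Module.finite_of_finite F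
  have hli : LinearIndependent F ![α • v 0 + β • v 1, γ • v 0 + δ • v 1] := by
    rw [li2_iff]
    intro x y h
    obtain ⟨h1, h2⟩ := li2_iff.1 hv.li (x * α + y * γ) (x * β + y * δ) (by rw [← h]; module)
    have h3 : x * (α * δ - β * γ) = 0 := by linear_combination δ * h1 - γ * h2
    have h4 : y * (α * δ - β * γ) = 0 := by linear_combination α * h2 - β * h1
    exact ⟨(mul_eq_zero.1 h3).resolve_right hdet, (mul_eq_zero.1 h4).resolve_right hdet⟩
  obtain ⟨g, hg, hgw⟩ := exists_sl_of_lt hw.li hli hn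
  have hg0 : g (w 0) = α • v 0 + β • v 1 := hgw 0
  have hg1 : g (w 1) = γ • v 0 + δ • v 1 := hgw 1
  refine ⟨g, hg, fun hpow => ?_⟩
  set d' := toA g * d * (toA g)⁻¹ with hd'
  have hd'g : ∀ x, d' (g x) = g (d x) := by
    intro x
    rw [hd', Equiv.Perm.mul_apply, Equiv.Perm.mul_apply, toA_inv_apply, toA_apply]
  have hd's : Semi τ d' := hd.conj g
  let U : Submodule F V := Submodule.span F {v 0, v 1}
  have hU : ∀ u, u ∈ U ↔ ∃ x y : F, x • v 0 + y • v 1 = u := fun u => Submodule.mem_span_pair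
  -- every vector of `U` comes from the line `w`
  have hUw : ∀ u ∈ U, ∃ x y : F, u = g (x • w 0 + y • w 1) := by
    intro u hu
    obtain ⟨x, y, rfl⟩ := (hU u).1 hu
    set D := α * δ - β * γ with hD
    refine ⟨D⁻¹ * (x * δ - y * γ), D⁻¹ * (y * α - x * β), ?_⟩
    rw [map_add, map_smul, map_smul, hg0, hg1]
    have e1 : D⁻¹ * (x * δ - y * γ) * α + D⁻¹ * (y * α - x * β) * γ = x := by
      have : D⁻¹ * (x * δ - y * γ) * α + D⁻¹ * (y * α - x * β) * γ = D⁻¹ * D * x := by rw [hD]; ring
      rw [this, inv_mul_cancel₀ hdet, one_mul]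
    have e2 : D⁻¹ * (x * δ - y * γ) * β + D⁻¹ * (y * α - x * β) * δ = y := by
      have : D⁻¹ * (x * δ - y * γ) * β + D⁻¹ * (y * α - x * β) * δ = D⁻¹ * D * y := by rw [hD]; ring
      rw [this, inv_mul_cancel₀ hdet, one_mul]
    calc x • v 0 + y • v 1
        = (D⁻¹ * (x * δ - y * γ) * α + D⁻¹ * (y * α - x * β) * γ) • v 0
          + (D⁻¹ * (x * δ - y * γ) * β + D⁻¹ * (y * α - x * β) * δ) • v 1 := by rw [e1, e2]
      _ = _ := by module
  have hgU : ∀ x y : F, g (x • w 0 + y • w 1) = (x * α + y * γ) • v 0 + (x * β + y * δ) • v 1 := by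
    intro x y
    rw [map_add, map_smul, map_smul, hg0, hg1]
    module
  have hinv : ∀ x ∈ Subgroup.closure ({c, d'} : Set (Equiv.Perm V)), (∃ θ : F ≃+* F, Semi θ x) ∧ ∀ u ∈ U, x u ∈ U := by
    intro x hx
    induction hx using Subgroup.closure_induction with
    | mem x hx =>
      rcases hx with rfl | rfl
      · refine ⟨⟨σ, hc⟩, fun u hu => ?_⟩
        obtain ⟨a, b, rfl⟩ := (hU u).1 hu
        obtain ⟨a', b', h1⟩ := hv.inv a b
        rw [h1]
        exact (hU _).2 ⟨a', b', rfl⟩
      · refine ⟨⟨τ, hd's⟩, fun u hu => ?_⟩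
        obtain ⟨a, b, rfl⟩ := hUw u hu
        obtain ⟨a', b', h1⟩ := hw.inv a b
        rw [hd'g, h1, hgU]
        exact (hU _).2 ⟨_, _, rfl⟩
    | one => exact ⟨⟨1, Semi.one⟩, fun u hu => hu⟩
    | mul x y _ _ hx hy =>
      obtain ⟨⟨θ, hθ⟩, hx⟩ := hx
      obtain ⟨⟨θ', hθ'⟩, hy⟩ := hy
      exact ⟨⟨θ * θ', hθ.mul hθ'⟩, fun u hu => hx _ (hy u hu)⟩
    | inv x _ hx =>
      obtain ⟨⟨θ, hθ⟩, hx⟩ := hx
      refine ⟨⟨θ⁻¹, hθ.inv⟩, fun u hu => ?_⟩
      have h1 : ∀ m : ℕ, ∀ u ∈ U, (x ^ m) u ∈ U := by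
        intro m
        induction m with
        | zero => exact fun u hu => hu
        | succ m ih =>
          intro u hu
          rw [pow_succ, Equiv.Perm.mul_apply]
          exact ih _ (hx u hu)
      have h2 : x⁻¹ = x ^ (orderOf x - 1) := by
        rw [inv_eq_iff_mul_eq_one, ← pow_succ', Nat.sub_add_cancel (orderOf_pos x), pow_orderOf_eq_one]
      rw [h2]
      exact h1 _ u hu
  have hv0 : v 0 ≠ 0 := by
    have := hv.li.ne_zero 0
    simpa using this
  have hU0 : U ≠ ⊥ := by
    intro h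
    have h1 : v 0 ∈ U := Submodule.subset_span (by simp)
    rw [h, Submodule.mem_bot] at h1
    exact hv0 h1
  obtain ⟨u, hu, hu0, hfix⟩ := exists_fixed hF (fun x hx => (hinv x hx).1) hpow hU0 (fun x hx => (hinv x hx).2)
  obtain ⟨a, ha⟩ := hfix c (Subgroup.subset_closure (by simp))
  obtain ⟨b, hb⟩ := hfix d' (Subgroup.subset_closure (by simp))
  obtain ⟨x, y, rfl⟩ := hUw u hu
  have hxy : x ≠ 0 ∨ y ≠ 0 := by
    by_contra hcon
    push Not at hcon
    apply hu0
    rw [hcon.1, hcon.2, zero_smul, zero_smul, add_zero, map_zero]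
  refine hdis x y hxy (hw.pts x y b hxy ?_) (hv.pts _ _ a ?_ ?_)
  · rw [hd'g, ← map_smul] at hb
    exact g.injective hb
  · by_contra hcon
    push Not at hcon
    apply hu0
    rw [hgU, hcon.1, hcon.2, zero_smul, zero_smul, add_zero]
  · rw [← hgU]
    exact ha

/-! ### the two types -/

/-- unipotent type -/
theorem exists_ln_unip {p : ℕ} [hp : Fact p.Prime] (hF : (p : F) = 0) {c : Equiv.Perm V} (hc : Semi (1 : F ≃+* F) c)
    (hcp : c ^ p = 1) (hc1 : c ≠ 1) : ∃ v : Fin 2 → V, Ln F c v (fun _ y => y = 0) := by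
  obtain ⟨f, hf, hfc⟩ := exists_end hc
  obtain ⟨v, hv⟩ : ∃ v, c v ≠ v := by
    by_contra hcon
    push Not at hcon
    exact hc1 (Equiv.ext hcon)
  let N : V →ₗ[F] V := (f : V →ₗ[F] V) - LinearMap.id
  have hN : ∀ x, N x = c x - x := fun x => by rw [← hf]; rfl
  have hnil : (N ^ p) v = 0 := by
    have hch : CharP F p := by
      have h1 : ringChar F ∣ p := ringChar.dvd hF
      rcases (Nat.dvd_prime hp.out).1 h1 with h2 | h2
      · exact absurd h2 (CharP.ringChar_ne_one)
      · rw [← h2]; exact ringChar.charP F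
    have hV : Nontrivial V := ⟨⟨c v, v, hv⟩⟩
    have hcE : CharP (End F V) p := charP_of_injective_algebraMap (algebraMap F (End F V)).injective p
    have h1 : N ^ p = (f : End F V) ^ p - 1 := by
      have h2 := sub_pow_char_of_commute (p := p) (Commute.one_right (f : End F V))
      rw [one_pow] at h2
      exact h2
    rw [h1, LinearMap.sub_apply, pow_end hf, hcp]
    exact sub_self v
  have hex : ∃ m, (N ^ m) v = 0 := ⟨p, hnil⟩
  classical
  set m := Nat.find hex with hm
  have hm1 : (N ^ m) v = 0 := Nat.find_spec hex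
  have hm2 : ∀ k, k < m → (N ^ k) v ≠ 0 := fun k hk => Nat.find_min hex hk
  have hm0 : m ≠ 0 := by
    intro h
    rw [h, pow_zero] at hm1
    apply hv
    have : v = 0 := hm1
    rw [this, hc.zero]
  have hm3 : m ≠ 1 := by
    intro h
    rw [h, pow_one, hN] at hm1
    exact hv (sub_eq_zero.1 hm1)
  obtain ⟨k, hk⟩ : ∃ k, m = k + 2 := ⟨m - 2, by omega⟩
  set v1 := (N ^ k) v with hv1
  set v0 := (N ^ (k + 1)) v with hv0
  have h01 : N v1 = v0 := by rw [hv0, pow_succ']; rfl
  have h00 : N v0 = 0 := by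
    have : N v0 = (N ^ (k + 2)) v := by rw [hv0, pow_succ' N (k + 1)]; rfl
    rw [this, ← hk, hm1]
  have hne : v0 ≠ 0 := hm2 _ (by omega)
  have hc0 : c v0 = v0 := by rw [hN, sub_eq_zero] at h00; exact h00
  have hc1' : c v1 = v1 + v0 := by rw [hN, sub_eq_iff_eq_add] at h01; rw [h01, add_comm]
  have hact : ∀ x y : F, c (x • v0 + y • v1) = (x + y) • v0 + y • v1 := by
    intro x y
    rw [hc.add, hc.smul, hc.smul, hc0, hc1', RingAut.one_apply, RingAut.one_apply]
    module
  have hli : LinearIndependent F ![v0, v1] := by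
    rw [li2_iff]
    intro x y h
    have h1 := congrArg N h
    rw [map_add, map_smul, map_smul, h00, h01, smul_zero, zero_add, map_zero] at h1
    have h2 : y = 0 := (smul_eq_zero.1 h1).resolve_right hne
    rw [h2, zero_smul, add_zero] at h
    exact ⟨(smul_eq_zero.1 h).resolve_right hne, h2⟩
  refine ⟨![v0, v1], hli, fun x y => ⟨x + y, y, hact x y⟩, fun x y a hxy h => ?_⟩
  change c (x • v0 + y • v1) = a • (x • v0 + y • v1) at h
  rw [hact] at h
  obtain ⟨h1, h2⟩ := li2 hli (x := x + y) (y := y) (x' := a * x) (y' := a * y) (by rw [h]; module)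
  by_contra hy
  have ha : a = 1 := by
    have h3 : (a - 1) * y = 0 := by linear_combination -h2
    exact sub_eq_zero.1 ((mul_eq_zero.1 h3).resolve_right hy)
  rw [ha, one_mul] at h1
  exact hy (by linear_combination h1)

/-- rational points -/
def Rat (σ : F ≃+* F) (x y : F) : Prop := ∃ m n : F, σ m = m ∧ σ n = n ∧ (m ≠ 0 ∨ n ≠ 0) ∧ m * y = n * x

/-- field type -/
theorem exists_ln_field [FiniteDimensional F V] {p : ℕ} (hp : 0 < p) {σ : F ≃+* F} {c : Equiv.Perm V} (hc : Semi σ c)
    (hσ : orderOf σ = p) (hcp : c ^ p = 1) (hn : 2 ≤ finrank F V) : ∃ v : Fin 2 → V, Ln F c v (Rat σ) := by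
  obtain ⟨b, hb, hbc⟩ := exists_fixed_basis hp hc hσ hcp hn
  have hb' : LinearIndependent F ![b 0, b 1] := by
    have : b = ![b 0, b 1] := by
      funext i; fin_cases i <;> rfl
    rwa [← this]
  have hact : ∀ x y : F, c (x • b 0 + y • b 1) = σ x • b 0 + σ y • b 1 := by
    intro x y
    rw [hc.add, hc.smul, hc.smul, hbc, hbc]
  refine ⟨b, hb', fun x y => ⟨_, _, hact x y⟩, fun x y a hxy h => ?_⟩
  rw [hact] at h
  obtain ⟨h1, h2⟩ := li2 hb' (x := σ x) (y := σ y) (x' := a * x) (y' := a * y) (by rw [h]; module)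
  by_cases hx : x = 0
  · exact ⟨0, 1, map_zero σ, map_one σ, Or.inr one_ne_zero, by rw [hx, mul_zero, zero_mul]⟩
  · refine ⟨1, y * x⁻¹, map_one σ, ?_, Or.inl one_ne_zero, by rw [one_mul, inv_mul_cancel_right₀ hx]⟩
    have ha : a ≠ 0 := by
      rintro rfl
      rw [zero_mul] at h1
      exact hx ((map_eq_zero σ).1 h1)
    rw [map_mul, map_inv₀, h1, h2]
    field_simp

theorem exists_ln [Finite F] [FiniteDimensional F V] {p : ℕ} [hp : Fact p.Prime] (hF : (p : F) = 0)
    (hn : 2 ≤ finrank F V) {σ : F ≃+* F} {c : Equiv.Perm V} (hc : Semi σ c) (hcp : IsScal F (c ^ p))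
    (hcn : ¬ IsScal F c) :
    (∃ v : Fin 2 → V, Ln F c v (fun _ y => y = 0)) ∨ (orderOf σ = p ∧ ∃ v : Fin 2 → V, Ln F c v (Rat σ)) := by
  have : Nontrivial V := nontrivial_of_finrank_pos (R := F) (by omega)
  obtain ⟨l, hl⟩ := hcp
  obtain ⟨v0, hv0⟩ := exists_ne (0 : V)
  have hl0 : l ≠ 0 := by
    rintro rfl
    have h1 := hl v0
    rw [zero_smul] at h1
    exact hv0 ((c ^ p).injective (h1.trans (hc.pow p).zero.symm))
  have hσp : σ ^ p = 1 := by
    ext a
    have h1 := (hc.pow p).smul a v0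
    rw [hl, hl, smul_smul, smul_smul] at h1
    have h2 : (l * a - (σ ^ p) a * l) • v0 = 0 := by rw [sub_smul, h1, sub_self]
    rcases smul_eq_zero.1 h2 with h | h
    · have h3 : l * (a - (σ ^ p) a) = 0 := by linear_combination h
      have h4 := (mul_eq_zero.1 h3).resolve_left hl0
      exact (sub_eq_zero.1 h4).symm
    · exact absurd h hv0
  by_cases hσ : σ = 1
  · subst hσ
    left
    have hch : CharP F p := by
      have h1 : ringChar F ∣ p := ringChar.dvd hF
      rcases (Nat.dvd_prime hp.out).1 h1 with h2 | h2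
      · exact absurd h2 (CharP.ringChar_ne_one)
      · rw [← h2]; exact ringChar.charP F
    obtain ⟨t, ht⟩ := (Finite.injective_iff_surjective.1 (frobenius_inj F p)) l
    rw [frobenius_def] at ht
    have ht0 : t ≠ 0 := by
      rintro rfl
      rw [zero_pow hp.out.ne_zero] at ht
      exact hl0 ht.symm
    have h1 : (smulA (Units.mk0 t ht0)⁻¹ c) ^ p = 1 := by
      ext v
      rw [Cfsg.Agent.H957.T5Main.smulA_pow_lin hc, hl, smul_smul, Units.val_inv_eq_inv_val, Units.val_mk0, ← ht,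
        ← mul_pow, inv_mul_cancel₀ ht0, one_pow, one_smul]
      rfl
    obtain ⟨v, hv⟩ := exists_ln_unip hF (hc.smulA _) h1 (fun h2 => Cfsg.Agent.H957.T5Main.not_isScal_smulA hcn (s := _)
      ⟨1, fun v => by rw [h2, one_smul]; rfl⟩)
    exact ⟨v, hv.of_smulA⟩
  · right
    have ho : orderOf σ = p := orderOf_eq_prime hσp hσ
    obtain ⟨s, hs⟩ := Cfsg.Agent.CpAut.Descent.exists_scale (g := c) (σ := σ) ⟨hc.add, hc.smul⟩ ho
      hp.out.pos hl0 hl ⟨v0, hv0⟩
    have h1 : smulA s c = Cfsg.Agent.CpAut.Descent.scal V s * c := by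
      ext v
      rw [smulA_apply, Equiv.Perm.mul_apply, Cfsg.Agent.CpAut.Descent.scal_apply]
    obtain ⟨v, hv⟩ := exists_ln_field hp.out.pos (hc.smulA s) ho (by rw [h1, hs]) hn
    exact ⟨ho, v, hv.of_smulA⟩

/-! ### the main theorem -/

/-- `1, t, t²` are independent over the fixed field of an automorphism of odd order not fixing `t` -/
theorem indep3 {σ : F ≃+* F} {p : ℕ} (hσ : σ ^ p = 1) (hodd : Odd p) {t : F} (ht : σ t ≠ t) {a b c : F} (ha : σ a = a)
    (hb : σ b = b) (hc : σ c = c) (h : a + b * t + c * t ^ 2 = 0) : a = 0 ∧ b = 0 ∧ c = 0 := by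
  have h1 : a + b * σ t + c * σ t ^ 2 = 0 := by
    have := congrArg σ h
    rwa [map_add, map_add, map_mul, map_mul, map_pow, ha, hb, hc, map_zero] at this
  have h2 : a + b * σ (σ t) + c * σ (σ t) ^ 2 = 0 := by
    have := congrArg σ h1
    rwa [map_add, map_add, map_mul, map_mul, map_pow, ha, hb, hc, map_zero] at this
  have hne : σ (σ t) ≠ t := by
    intro h3
    apply ht
    obtain ⟨k, hk⟩ := hodd
    have h4 : ∀ j : ℕ, (σ ^ (2 * j)) t = t := by
      intro j
      induction j with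
      | zero => rfl
      | succ j ih =>
        rw [Nat.mul_succ, pow_add]
        change (σ ^ (2 * j)) ((σ ^ 2) t) = t
        have : (σ ^ 2) t = t := by rw [pow_two]; exact h3
        rw [this, ih]
    have h5 : σ ^ (2 * (k + 1)) = σ := by
      have : 2 * (k + 1) = p + 1 := by omega
      rw [this, pow_succ, hσ, one_mul]
    have h6 := h4 (k + 1)
    rwa [h5] at h6
  have e1 : (t - σ t) * (b + c * (t + σ t)) = 0 := by linear_combination h - h1
  have e2 : (σ t - σ (σ t)) * (b + c * (σ t + σ (σ t))) = 0 := by linear_combination h1 - h2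
  have e3 := (mul_eq_zero.1 e1).resolve_left (sub_ne_zero.2 (Ne.symm ht))
  have e4 := (mul_eq_zero.1 e2).resolve_left (sub_ne_zero.2 fun h => ht (σ.injective h.symm))
  have e5 : c * (t - σ (σ t)) = 0 := by linear_combination e3 - e4
  have hc0 := (mul_eq_zero.1 e5).resolve_right (sub_ne_zero.2 (Ne.symm hne))
  subst hc0
  have hb0 : b = 0 := by linear_combination e3
  subst hb0
  exact ⟨by linear_combination h, rfl, rfl⟩

theorem wp_main [Finite F] [FiniteDimensional F V] {p : ℕ} [hp : Fact p.Prime] (hp2 : p ≠ 2) (hF : (p : F) = 0)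
    (hn : 2 < finrank F V) {σ τ : F ≃+* F} {c d : Equiv.Perm V} (hc : Semi σ c) (hcp : IsScal F (c ^ p))
    (hcn : ¬ IsScal F c) (hd : Semi τ d) (hdp : IsScal F (d ^ p)) (hdn : ¬ IsScal F d) : WP F p c d := by
  rcases exists_ln hF hn.le hc hcp hcn with ⟨v, hv⟩ | ⟨hσ, v, hv⟩ <;>
    rcases exists_ln hF hn.le hd hdp hdn with ⟨w, hw⟩ | ⟨hτ, w, hw⟩
  · refine wp_of_ln hF hn hc hd hv hw 0 1 1 0 (by norm_num) ?_
    intro x y hxy hB hA
    rcases hxy with h | h
    · apply h
      linear_combination hA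
    · exact h hB
  · obtain ⟨t, ht⟩ := Cfsg.Agent.H957.T5Field.exists_t hp.out hτ
    refine wp_of_ln hF hn hc hd hv hw 1 (-t) 0 1 (by norm_num) ?_
    rintro x y hxy ⟨m, n, hm, hn', hmn, h1⟩ hA
    have hy : y = x * t := by linear_combination hA
    have hx : x ≠ 0 := by
      rintro rfl
      rw [zero_mul] at hy
      rcases hxy with h | h
      · exact h rfl
      · exact h hy
    have h2 : m * t = n := by
      apply mul_left_cancel₀ hx
      rw [hy] at h1
      linear_combination h1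
    have hm0 : m ≠ 0 := by
      rintro rfl
      rw [zero_mul] at h2
      rcases hmn with h | h
      · exact h rfl
      · exact h h2.symm
    apply ht
    apply mul_left_cancel₀ hm0
    conv_lhs => rw [← hm]
    rw [← map_mul, h2, hn']
  · obtain ⟨t, ht⟩ := Cfsg.Agent.H957.T5Field.exists_t hp.out hσ
    refine wp_of_ln hF hn hc hd hv hw 1 t 0 1 (by norm_num) ?_
    rintro x y hxy hB ⟨m, n, hm, hn', hmn, h1⟩
    have hy : y = 0 := hB
    subst hy
    have hx : x ≠ 0 := by
      rcases hxy with h | h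
      · exact h
      · exact absurd rfl h
    have h2 : m * t = n := by
      apply mul_left_cancel₀ hx
      linear_combination h1
    have hm0 : m ≠ 0 := by
      rintro rfl
      rw [zero_mul] at h2
      rcases hmn with h | h
      · exact h rfl
      · exact h h2.symm
    apply ht
    apply mul_left_cancel₀ hm0
    conv_lhs => rw [← hm]
    rw [← map_mul, h2, hn']
  · obtain ⟨t, ht⟩ := Cfsg.Agent.H957.T5Field.exists_t hp.out hσ
    obtain ⟨j, hj⟩ := exists_pow_inv hp.out hσ hτ
    have hfix : ∀ a : F, τ a = a → σ a = a := by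
      intro a ha
      have h1 : ∀ k : ℕ, (τ ^ k) a = a := by
        intro k
        induction k with
        | zero => rfl
        | succ k ih =>
          rw [pow_succ]
          change (τ ^ k) (τ a) = a
          rw [ha, ih]
      have h2 := h1 j
      rw [hj] at h2
      have h3 : σ ((σ⁻¹ : F ≃+* F) a) = a := RingEquiv.apply_symm_apply σ a
      rwa [h2] at h3
    have hodd := hp.out.odd_of_ne_two hp2
    have hσp : σ ^ p = 1 := by rw [← hσ, pow_orderOf_eq_one]
    refine wp_of_ln hF hn hc hd hv hw 1 t (t ^ 2) 1 ?_ ?_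
    · intro h
      have h1 : (t - 1) * (1 + 1 * t + 1 * t ^ 2) = 0 := by linear_combination -h
      rcases mul_eq_zero.1 h1 with h2 | h2
      · apply ht
        rw [sub_eq_zero.1 h2, map_one]
      · exact one_ne_zero (indep3 hσp hodd ht (map_one σ) (map_one σ) (map_one σ) h2).1
    · rintro x y hxy ⟨m', n', hm', hn', hmn', h1⟩ ⟨m, n, hm, hn, hmn, h2⟩
      have hm'' := hfix _ hm'
      have hn'' := hfix _ hn'
      -- `(x, y) = μ (m', n')`
      obtain ⟨μ, hμ, hx, hy⟩ : ∃ μ : F, μ ≠ 0 ∧ x = μ * m' ∧ y = μ * n' := by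
        by_cases h0 : m' = 0
        · have hn0 : n' ≠ 0 := by
            rcases hmn' with h | h
            · exact absurd h0 h
            · exact h
          have hx : x = 0 := by
            rw [h0, zero_mul] at h1
            exact (mul_eq_zero.1 h1.symm).resolve_left hn0
          have hy : y ≠ 0 := by
            rcases hxy with h | h
            · exact absurd hx h
            · exact h
          exact ⟨y * n'⁻¹, mul_ne_zero hy (inv_ne_zero hn0), by rw [h0, mul_zero, hx], by rw [inv_mul_cancel_right₀ hn0]⟩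
        · have hx : x ≠ 0 := by
            rintro rfl
            rw [mul_zero] at h1
            have := (mul_eq_zero.1 h1).resolve_left h0
            rcases hxy with h | h
            · exact h rfl
            · exact h this
          refine ⟨x * m'⁻¹, mul_ne_zero hx (inv_ne_zero h0), by rw [inv_mul_cancel_right₀ h0], ?_⟩
          field_simp
          linear_combination h1
      have h3 : (m * n' - n * m') + (m * m') * t + (-(n * n')) * t ^ 2 = 0 := by
        apply mul_left_cancel₀ hμ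
        rw [hx, hy] at h2
        linear_combination h2
      obtain ⟨h4, h5, h6⟩ := indep3 hσp hodd ht (by rw [map_sub, map_mul, map_mul, hm, hn, hm'', hn''])
        (by rw [map_mul, hm, hm'']) (by rw [map_neg, map_mul, hn, hn'']) h3
      rcases mul_eq_zero.1 h5 with h7 | h7
      · subst h7
        rw [zero_mul, zero_sub] at h4
        have hn0 : n ≠ 0 := by
          rcases hmn with h | h
          · exact absurd rfl h
          · exact h
        have h8 : n' = 0 := (mul_eq_zero.1 (neg_eq_zero.1 h6)).resolve_left hn0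
        have h9 : m' = 0 := (mul_eq_zero.1 (neg_eq_zero.1 h4)).resolve_left hn0
        rcases hmn' with h | h
        · exact h h9
        · exact h h8
      · subst h7
        have hn0 : n' ≠ 0 := by
          rcases hmn' with h | h
          · exact absurd rfl h
          · exact h
        rw [mul_zero, sub_zero] at h4
        have h8 : m = 0 := (mul_eq_zero.1 h4).resolve_right hn0
        have h9 : n = 0 := (mul_eq_zero.1 (neg_eq_zero.1 h6)).resolve_right hn0
        rcases hmn with h | h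
        · exact h h8
        · exact h h9

end Cfsg.Agent.H486.WfOwn
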