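import Cfsg.Agent.H486.Wf.OwnGeo
import Cfsg.Agent.H533.Wf.Kills

/-!
# S3826: the row `PSL_n(q)`, `n ≥ 3`, in its own characteristic

* `wrow_of` : semilinear maps to automorphisms;
* `wrow_psl_own` : `WRow p (PSL_n(F))`, `n ≥ 3`, `char F = p` odd;
* `wf_psl_own` : the row of S3826.
-/

set_option autoImplicit false
set_option linter.unusedSectionVars false

namespace Cfsg.Agent.H486.WfOwn

open Module Cfsg.Agent.H957.T5V Cfsg.Agent.H957.T5Conf Cfsg.Agent.H957.T5Pairs Cfsg.Agent.H533.T5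
open Cfsg.Agent.H903.SylSemi (Ind scal scal_apply)
open Cfsg.Agent.H957.T5Tr

universe u v

section transfer

variable {F V : Type*} [Field F] [AddCommGroup V] [Module F V] {T : Type*} [Group T] {X : Type*} [Group X]

theorem wrow_of [Nontrivial V] [Finite V] [Finite T] {p : ℕ} (hp : p.Prime) {π : X →* T} (hπ : Function.Surjective π)
    {ρ : X →* Equiv.Perm V} (hρ : Function.Injective ρ)
    (hρlin : ∀ s : X, Semi (1 : F ≃+* F) (ρ s))
    {W : Equiv.Perm V → Prop} (hWmul : ∀ y y', W y → W y' → W (y * y')) (hWρ : ∀ s : X, W (ρ s))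
    (hind : ∀ c : MulAut T, orderOf c = p → ∃ y, W y ∧ Ind π ρ y c)
    (huniq : ∀ y, W y → Ind π ρ y 1 → ∃ a : Fˣ, y = scal F V a)
    (hcore : ∀ y z, W y → W z → IsScal F (y ^ p) → ¬ IsScal F y → IsScal F (z ^ p) →
      ¬ IsScal F z → ∃ s : X, ¬ ∀ x ∈ Subgroup.closure ({y, ρ s * z * (ρ s)⁻¹} : Set (Equiv.Perm V)),
        ∃ k : ℕ, IsScal F (x ^ p ^ k)) : WRow p T := by
  have hW1 : W 1 := by simpa using hWρ 1
  have hWpow : ∀ y, W y → ∀ m : ℕ, W (y ^ m) := by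
    intro y hy m
    induction m with
    | zero => simpa using hW1
    | succ m ih => rw [pow_succ]; exact hWmul _ _ ih hy
  have hWinv : ∀ y, W y → W y⁻¹ := by
    intro y hy
    have h2 : y⁻¹ = y ^ (orderOf y - 1) := by
      rw [inv_eq_iff_mul_eq_one, ← pow_succ', Nat.sub_add_cancel (orderOf_pos y), pow_orderOf_eq_one]
    rw [h2]
    exact hWpow y hy _
  have helt : ∀ c : MulAut T, orderOf c = p → ∀ y, W y → Ind π ρ y c →
      IsScal F (y ^ p) ∧ ¬ IsScal F y := by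
    intro c hc y hy hyc
    constructor
    · have h1 := hyc.pow p
      have h2 : c ^ p = 1 := by rw [← hc, pow_orderOf_eq_one]
      rw [h2] at h1
      obtain ⟨a, ha⟩ := huniq _ (hWpow y hy p) h1
      rw [ha]
      exact isScal_scal a
    · intro hs
      obtain ⟨a, rfl⟩ := exists_scal hs
      have h1 : c = 1 := Ind.unique hπ hρ hyc (ind_scal hρlin a)
      rw [h1, orderOf_one] at hc
      exact hp.one_lt.ne hc
  intro c d hc hd
  obtain ⟨y, hy, hyc⟩ := hind c hc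
  obtain ⟨z, hz, hzd⟩ := hind d hd
  obtain ⟨hyp, hyn⟩ := helt c hc y hy hyc
  obtain ⟨hzp, hzn⟩ := helt d hd z hz hzd
  obtain ⟨s, h⟩ := hcore y z hy hz hyp hyn hzp hzn
  refine ⟨MulAut.conj (π s), ⟨π s, rfl⟩, fun hP => h fun x hx => ?_⟩
  have hz' : Ind π ρ (ρ s * z * (ρ s)⁻¹) (MulAut.conj (π s) * d * (MulAut.conj (π s))⁻¹) :=
    ((Ind.conj π ρ s).mul hzd).mul (Ind.conj π ρ s).inv
  have key : W x ∧ ∃ e ∈ Subgroup.closure ({c, MulAut.conj (π s) * d * (MulAut.conj (π s))⁻¹} : Set (MulAut T)),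
      Ind π ρ x e := by
    induction hx using Subgroup.closure_induction with
    | mem x hx =>
      rcases hx with rfl | rfl
      · exact ⟨hy, c, Subgroup.subset_closure (by simp), hyc⟩
      · exact ⟨hWmul _ _ (hWmul _ _ (hWρ s) hz) (hWinv _ (hWρ s)), _, Subgroup.subset_closure (by simp), hz'⟩
    | one => exact ⟨hW1, 1, one_mem _, Ind.one π ρ⟩
    | mul x y _ _ hx hy =>
      obtain ⟨h1, e, he, h2⟩ := hx
      obtain ⟨h3, e', he', h4⟩ := hy
      exact ⟨hWmul _ _ h1 h3, e * e', mul_mem he he', h2.mul h4⟩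
    | inv x _ hx =>
      obtain ⟨h1, e, he, h2⟩ := hx
      exact ⟨hWinv _ h1, e⁻¹, inv_mem he, h2.inv⟩
  obtain ⟨h1, e, he, h2⟩ := key
  obtain ⟨k, hk⟩ := hP ⟨e, he⟩
  have hk' : e ^ p ^ k = 1 := congrArg Subtype.val hk
  have h3 := h2.pow (p ^ k)
  rw [hk'] at h3
  obtain ⟨a, ha⟩ := huniq _ (hWpow x h1 _) h3
  exact ⟨k, by rw [ha]; exact isScal_scal a⟩

end transfer

section psl

open Matrix
open Cfsg.Agent.H199.PslAut
open Cfsg.Agent.ClassicalGeometry.AutPSL.Root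
open Cfsg.Agent.ClassicalGeometry.AutPSL.Auto
open Cfsg.Agent.H897.MeetPSL

theorem wrow_psl_own {F : Type} [Field F] [Fintype F] {n p : ℕ} [hp : Fact p.Prime] (hn : 3 ≤ n) (hp2 : p ≠ 2)
    (hpF : (p : F) = 0) : WRow p (Matrix.ProjectiveSpecialLinearGroup (Fin n) F) := by
  have : Nonempty (Fin n) := ⟨⟨0, by omega⟩⟩
  have : Nontrivial (Fin n → F) := Function.nontrivial
  have hn2 : 2 ≤ n := by omega
  refine wrow_of (F := F) hp.out (π := (pr : Matrix.SpecialLinearGroup (Fin n) F →*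
      Matrix.ProjectiveSpecialLinearGroup (Fin n) F)) pr_surjective (ρ := rho n F) rho_injective
    ?_ (W := fun y => ∃ θ : F ≃+* F, Semi θ y) ?_ ?_ ?_ ?_ ?_
  · intro s
    refine ⟨fun u v => ?_, fun b v => ?_⟩
    · rw [rho_apply, rho_apply, rho_apply, mulVec_add]
    · rw [rho_apply, rho_apply, mulVec_smul]
      rfl
  · rintro y y' ⟨θ, h⟩ ⟨θ', h'⟩
    exact ⟨θ * θ', h.mul h'⟩
  · intro s
    refine ⟨1, fun u v => ?_, fun b v => ?_⟩
    · rw [rho_apply, rho_apply, rho_apply, mulVec_add]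
    · rw [rho_apply, rho_apply, mulVec_smul]
      rfl
  · intro β hβ
    have hP : IsPGroup p ↥(Subgroup.zpowers β) :=
      IsPGroup.of_card (n := 1) (by rw [Nat.card_zpowers, hβ, pow_one])
    obtain ⟨g, σ, rfl⟩ := form_of_pgroup hn2 hp2 hP (Subgroup.mem_zpowers β)
    exact ⟨smap g σ, ⟨σ, (semi_smap g σ).1, (semi_smap g σ).2⟩, ind_smap g σ⟩
  · rintro y ⟨θ, hθ⟩ hy
    obtain ⟨A, rfl⟩ := exists_smap (show Cfsg.Agent.H903.SylSemi.Semi F y θ from ⟨hθ.add, hθ.smul⟩)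
    have h1 : Psi n F A * phi n F θ = 1 :=
      Ind.unique pr_surjective rho_injective (ind_smap A θ) hy
    obtain ⟨⟨u, rfl⟩, h2⟩ := Psi_phi_eq hn2 (g := A) (σ := θ) (τ := 1) (by rw [h1, map_one])
    refine ⟨u, ?_⟩
    ext v : 1
    rw [smap_apply, h2, scal_apply, Cfsg.Agent.H199.PslAut.coe_scal]
    change (scalar (Fin n) (u : F)) *ᵥ v = (u : F) • v
    rw [Matrix.scalar_apply, Matrix.diagonal_const_mulVec]
  · rintro y z ⟨θ, hy⟩ ⟨θ', hz⟩ hyp hyn hzp hzn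
    obtain ⟨g, hg, h⟩ := wp_main (V := Fin n → F) hp2 hpF
      (by rw [Module.finrank_fintype_fun_eq_card, Fintype.card_fin]; omega) hy hyp hyn hz hzp hzn
    have hd : (LinearMap.toMatrix' (g : (Fin n → F) →ₗ[F] (Fin n → F))).det = 1 := by
      rw [LinearMap.det_toMatrix', ← LinearEquiv.coe_det, hg, Units.val_one]
    refine ⟨⟨LinearMap.toMatrix' (g : (Fin n → F) →ₗ[F] (Fin n → F)), hd⟩, ?_⟩
    have hs : rho n F ⟨LinearMap.toMatrix' (g : (Fin n → F) →ₗ[F] (Fin n → F)), hd⟩ = toA g := by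
      ext v : 1
      refine (rho_apply _ v).trans ?_
      change (LinearMap.toMatrix' (g : (Fin n → F) →ₗ[F] (Fin n → F))) *ᵥ v = g v
      rw [LinearMap.toMatrix'_mulVec]
      rfl
    rw [hs]
    exact h

end psl

open Cfsg.Agent.H533.Wf in
/-- **The row of S3826.** -/
theorem wf_psl_own {K : Type v} [Group K] [Finite K] [IsSimpleGroup K] {F : Type} [Field F] [Fintype F] [CharP F 3]
    {n : ℕ} (hn : 3 ≤ n) (e : Nonempty (K ≃* Matrix.ProjectiveSpecialLinearGroup (Fin n) F)) :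
    WfRow.{u, v} 3 K := by
  have : Fact (Nat.Prime 3) := ⟨Nat.prime_three⟩
  obtain ⟨e⟩ := e
  refine WfRow.of_wrow (Cfsg.Agent.H164.RowCongr.wrow_congr e.symm ?_)
  exact wrow_psl_own hn (by norm_num) (CharP.cast_eq_zero F 3)

end Cfsg.Agent.H486.WfOwn
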